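import Groth.Agent.S2171
import Mathlib.Data.Real.Basic
import Mathlib.Tactic.Linarith
import Mathlib.Tactic.Positivity
import Mathlib.Tactic.Ring
import Mathlib.Tactic.FieldSimp

/-!
# Integer form of the Zariski lemma (S2171)
-/

set_option autoImplicit false

namespace Groth.Agent.Models.H43.FormGlue

open Finset

/-- An integer symmetric connected matrix with non-negative off-diagonal entries killing a positive
vector `m` is negative semi-definite, an integer vector being isotropic exactly when it is a rational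
multiple of `m`. -/
theorem form_nonpos_and_eq_zero_iff {n : ℕ} (A : Fin n → Fin n → ℤ) (m : Fin n → ℕ)
    (hsymm : ∀ i j, A i j = A j i) (hA : ∀ i j, i ≠ j → 0 ≤ A i j) (hm : ∀ i, 0 < m i)
    (hAm : ∀ j, ∑ i, (m i : ℤ) * A i j = 0)
    (hconn : ∀ I : Finset (Fin n), I.Nonempty → I ≠ univ → ∃ i ∈ I, ∃ j ∉ I, A i j ≠ 0)
    (a : Fin n → ℤ) :
    (∑ q : Fin n × Fin n, a q.1 * a q.2 * A q.1 q.2) ≤ 0 ∧
      ((∑ q : Fin n × Fin n, a q.1 * a q.2 * A q.1 q.2) = 0 ↔
        ∃ c : ℚ, ∀ i, (a i : ℚ) = c * (m i : ℚ)) := by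
  have key := Groth.Agent.S2171.result (n := n) (fun i j => (A i j : ℝ)) (fun i => (m i : ℝ))
    (by ext i j; simp [Matrix.transpose_apply, hsymm j i])
    (fun i j hij => by exact_mod_cast hA i j hij)
    (fun i => by exact_mod_cast hm i)
    (by
      funext i
      simp only [Matrix.mulVec, dotProduct, Pi.zero_apply]
      have := hAm i
      have h2 : ((∑ j, (m j : ℤ) * A j i : ℤ) : ℝ) = 0 := by rw [this]; simp
      rw [← h2]
      push_cast
      refine Finset.sum_congr rfl fun j _ => ?_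
      rw [hsymm i j, mul_comm])
    (fun I hI hI' => by
      obtain ⟨i, hi, j, hj, h⟩ := hconn I hI hI'
      exact ⟨i, hi, j, hj, by exact_mod_cast h⟩)
    (fun i => (a i : ℝ))
  have hdot : dotProduct (fun i => (a i : ℝ)) (Matrix.mulVec (fun i j => (A i j : ℝ)) (fun i => (a i : ℝ))) =
      ((∑ q : Fin n × Fin n, a q.1 * a q.2 * A q.1 q.2 : ℤ) : ℝ) := by
    rw [Fintype.sum_prod_type]
    simp only [Matrix.mulVec, dotProduct]
    push_cast
    refine Finset.sum_congr rfl fun i _ => ?_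
    rw [Finset.mul_sum]
    refine Finset.sum_congr rfl fun j _ => ?_
    ring
  rw [hdot] at key
  refine ⟨by exact_mod_cast key.1, ?_⟩
  have h2 : ((∑ q : Fin n × Fin n, a q.1 * a q.2 * A q.1 q.2 : ℤ) : ℝ) = 0 ↔
      (∑ q : Fin n × Fin n, a q.1 * a q.2 * A q.1 q.2) = 0 := by norm_cast
  rw [← h2, key.2]
  constructor
  · rintro ⟨q, hq⟩
    rcases Nat.eq_zero_or_pos n with hn | hn
    · subst hn
      exact ⟨0, fun i => i.elim0⟩
    · let i₀ : Fin n := ⟨0, hn⟩
      have h0 : (a i₀ : ℝ) = q * m i₀ := congrFun hq i₀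
      have hm0 : (m i₀ : ℝ) ≠ 0 := by exact_mod_cast (hm i₀).ne'
      have hq' : q = ((a i₀ : ℚ) / (m i₀ : ℚ) : ℚ) := by
        push_cast
        rw [h0]; field_simp
      refine ⟨(a i₀ : ℚ) / (m i₀ : ℚ), fun i => ?_⟩
      have h1 : (a i : ℝ) = q * m i := congrFun hq i
      rw [hq'] at h1
      exact_mod_cast h1
  · rintro ⟨c, hc⟩
    refine ⟨(c : ℝ), funext fun i => ?_⟩
    have := hc i
    have h3 : ((a i : ℚ) : ℝ) = ((c * (m i : ℚ) : ℚ) : ℝ) := by rw [this]
    simpa using h3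

end Groth.Agent.Models.H43.FormGlue
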