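import Groth.Prelude.Def_ModelsG
import Groth.Agent.VarietyB.ResMap
import Mathlib.RingTheory.HopkinsLevitzki
import Mathlib.AlgebraicGeometry.Noetherian

/-!
# Positivity of the multiplicities of the components of the closed fibre

`X` is locally of finite type over a discrete valuation ring `R`, `Γ` a vertical prime divisor whose
underlying set is a component of the closed fibre.
* `specMap_stalkHom`: the defining property of `Models.stalkHom`.
* `maximalIdeal_of_le`: the only prime of `O_{X,ξ}` (with `ξ` the generic point of `Γ`) containing `𝔪_R`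
  is the maximal ideal.
* `length_ne_top`, `length_ne_zero`, `mult_coe`, `mult_pos`.
-/

set_option autoImplicit false
universe u

open CategoryTheory CategoryTheory.Limits AlgebraicGeometry

namespace Groth.Agent.Models.H43.MultPos

variable (R : Type u) [CommRing R] [IsDomain R] [IsDiscreteValuationRing R]
variable (X : Over (Spec (CommRingCat.of R)))

/-- The defining property of `Models.stalkHom`. -/
theorem specMap_stalkHom (x : X.left) :
    Spec.map (CommRingCat.ofHom (Models.stalkHom R X x)) = X.left.fromSpecStalk x ≫ X.hom := by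
  have h : CommRingCat.ofHom (Models.stalkHom R X x) =
      CommRingCat.ofHom (R := R) (S := Γ(X.left, ⊤)) (Coh.toGlobal X.hom) ≫
        X.left.presheaf.germ ⊤ x trivial := rfl
  rw [h, Spec.map_comp, ← Scheme.fromSpecStalk_toSpecΓ, Category.assoc,
    Groth.Agent.VarietyB.ResMap.specMap_toGlobal]

/-- The prime ideals of `O_{X,x}` over `𝔪_R` are those which correspond to points of the closed fibre. -/
theorem comap_stalkHom (x : X.left) (q : Spec (X.left.presheaf.stalk x)) :
    (X.hom (X.left.fromSpecStalk x q) : PrimeSpectrum R) =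
      PrimeSpectrum.comap (Models.stalkHom R X x) q := by
  have h := specMap_stalkHom R X x
  have h2 : (X.left.fromSpecStalk x ≫ X.hom) q = (Spec.map (CommRingCat.ofHom (Models.stalkHom R X x))) q := by
    rw [h]
  exact h2

theorem map_le_iff (x : X.left) (q : Spec (X.left.presheaf.stalk x)) :
    Ideal.map (Models.stalkHom R X x) (IsLocalRing.maximalIdeal R) ≤ q.asIdeal ↔
      X.left.fromSpecStalk x q ∈ Models.specialFibreSet R X := by
  rw [Ideal.map_le_iff_le_comap]
  have h : X.left.fromSpecStalk x q ∈ Models.specialFibreSet R X ↔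
      X.hom (X.left.fromSpecStalk x q) = IsLocalRing.closedPoint R := Iff.rfl
  rw [h, comap_stalkHom]
  constructor
  · intro h1
    refine PrimeSpectrum.ext ?_
    exact ((IsLocalRing.maximalIdeal.isMaximal R).eq_of_le (PrimeSpectrum.isPrime _).ne_top h1).symm
  · intro h1
    have h2 := congrArg PrimeSpectrum.asIdeal h1
    exact (le_of_eq h2.symm)

variable {R X}

theorem range_eq_closure (Γ : ArSurf.VertComp R X) :
    Set.range (Γ.ι.base : Γ.curve.left → X.left) = closure {Models.genPtOf R X Γ} := by
  have h : Set.range (Γ.ι.base : Γ.curve.left → X.left) = Γ.ι '' closure {genericPoint Γ.curve.left} := by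
    rw [genericPoint_closure]
    exact Set.image_univ.symm
  rw [h, ← Γ.ι.isClosedEmbedding.isClosedMap.closure_image_eq_of_continuous Γ.ι.continuous,
    Set.image_singleton]
  rfl

theorem genPtOf_mem (Γ : ArSurf.VertComp R X)
    (hΓ : Set.range (Γ.ι.base : Γ.curve.left → X.left) ∈ Models.fibreComponents R X) :
    Models.genPtOf R X Γ ∈ Models.specialFibreSet R X :=
  hΓ.1.2 ⟨_, rfl⟩

/-- A generization of the generic point of a component inside the closed fibre is that generic point. -/
theorem eq_genPtOf (Γ : ArSurf.VertComp R X)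
    (hΓ : Set.range (Γ.ι.base : Γ.curve.left → X.left) ∈ Models.fibreComponents R X)
    (y : X.left) (hy : y ⤳ Models.genPtOf R X Γ) (hy' : y ∈ Models.specialFibreSet R X) :
    y = Models.genPtOf R X Γ := by
  have h1 : Set.range (Γ.ι.base : Γ.curve.left → X.left) ⊆ closure {y} := by
    rw [range_eq_closure]
    exact closure_minimal (by simpa using hy.mem_closure) isClosed_closure
  have h2 : closure {y} ⊆ Set.range (Γ.ι.base : Γ.curve.left → X.left) :=
    hΓ.2 ⟨isIrreducible_singleton.closure,
      closure_minimal (by simpa using hy') (Models.isClosed_specialFibreSet R X)⟩ h1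
  have h3 : closure {y} = closure {Models.genPtOf R X Γ} := by
    rw [← range_eq_closure]; exact h2.antisymm h1
  exact (inseparable_iff_closure_eq.2 h3).eq

theorem maximalIdeal_of_le (Γ : ArSurf.VertComp R X)
    (hΓ : Set.range (Γ.ι.base : Γ.curve.left → X.left) ∈ Models.fibreComponents R X)
    (q : Ideal (X.left.presheaf.stalk (Models.genPtOf R X Γ))) [hq : q.IsPrime]
    (h : Ideal.map (Models.stalkHom R X (Models.genPtOf R X Γ)) (IsLocalRing.maximalIdeal R) ≤ q) :
    q = IsLocalRing.maximalIdeal _ := by
  let q' : Spec (X.left.presheaf.stalk (Models.genPtOf R X Γ)) := ⟨q, hq⟩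
  have h1 := (map_le_iff R X (Models.genPtOf R X Γ) q').1 h
  have h2 : X.left.fromSpecStalk _ q' ⤳ Models.genPtOf R X Γ := by
    have : X.left.fromSpecStalk _ q' ∈ Set.range (X.left.fromSpecStalk (Models.genPtOf R X Γ)) := ⟨q', rfl⟩
    rw [Scheme.range_fromSpecStalk] at this
    exact this
  have h3 := eq_genPtOf Γ hΓ _ h2 h1
  have h4 : q' = IsLocalRing.closedPoint (X.left.presheaf.stalk (Models.genPtOf R X Γ)) := by
    apply (X.left.fromSpecStalk (Models.genPtOf R X Γ)).isEmbedding.injective
    rw [h3, Scheme.fromSpecStalk_closedPoint]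
  exact congrArg PrimeSpectrum.asIdeal h4

theorem map_le_maximalIdeal (Γ : ArSurf.VertComp R X)
    (hΓ : Set.range (Γ.ι.base : Γ.curve.left → X.left) ∈ Models.fibreComponents R X) :
    Ideal.map (Models.stalkHom R X (Models.genPtOf R X Γ)) (IsLocalRing.maximalIdeal R) ≤
      IsLocalRing.maximalIdeal (X.left.presheaf.stalk (Models.genPtOf R X Γ)) := by
  have h := (map_le_iff R X (Models.genPtOf R X Γ)
    (IsLocalRing.closedPoint (X.left.presheaf.stalk (Models.genPtOf R X Γ)))).2
    (by rw [Scheme.fromSpecStalk_closedPoint]; exact genPtOf_mem Γ hΓ)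
  exact h

theorem isLocallyNoetherian_left [LocallyOfFiniteType X.hom] : IsLocallyNoetherian X.left :=
  LocallyOfFiniteType.isLocallyNoetherian X.hom

/-- The length of `O_{X,ξ} / 𝔪_R O_{X,ξ}` is not zero. -/
theorem length_ne_zero (Γ : ArSurf.VertComp R X)
    (hΓ : Set.range (Γ.ι.base : Γ.curve.left → X.left) ∈ Models.fibreComponents R X) :
    Module.length (X.left.presheaf.stalk (Models.genPtOf R X Γ))
      (X.left.presheaf.stalk (Models.genPtOf R X Γ) ⧸
        Ideal.map (Models.stalkHom R X (Models.genPtOf R X Γ)) (IsLocalRing.maximalIdeal R)) ≠ 0 := by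
  have hne : Ideal.map (Models.stalkHom R X (Models.genPtOf R X Γ)) (IsLocalRing.maximalIdeal R) ≠ ⊤ :=
    ne_top_of_le_ne_top (IsLocalRing.maximalIdeal.isMaximal _).ne_top (map_le_maximalIdeal Γ hΓ)
  have : Nontrivial (X.left.presheaf.stalk (Models.genPtOf R X Γ) ⧸
        Ideal.map (Models.stalkHom R X (Models.genPtOf R X Γ)) (IsLocalRing.maximalIdeal R)) :=
    Ideal.Quotient.nontrivial_iff.2 hne
  rw [Ne, Module.length_eq_zero_iff]
  exact not_subsingleton _

/-- The length of `O_{X,ξ} / 𝔪_R O_{X,ξ}` is finite. -/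
theorem isFiniteLength [LocallyOfFiniteType X.hom] (Γ : ArSurf.VertComp R X)
    (hΓ : Set.range (Γ.ι.base : Γ.curve.left → X.left) ∈ Models.fibreComponents R X) :
    IsFiniteLength (X.left.presheaf.stalk (Models.genPtOf R X Γ))
      (X.left.presheaf.stalk (Models.genPtOf R X Γ) ⧸
        Ideal.map (Models.stalkHom R X (Models.genPtOf R X Γ)) (IsLocalRing.maximalIdeal R)) := by
  have := isLocallyNoetherian_left (R := R) (X := X)
  set A := X.left.presheaf.stalk (Models.genPtOf R X Γ)
  set I := Ideal.map (Models.stalkHom R X (Models.genPtOf R X Γ)) (IsLocalRing.maximalIdeal R)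
  have hN : IsNoetherianRing A := inferInstance
  have hdim : Ring.KrullDimLE 0 (A ⧸ I) := by
    refine Ring.krullDimLE_zero_iff.2 fun Q hQ => ?_
    have h1 : (Q.comap (Ideal.Quotient.mk I)) = IsLocalRing.maximalIdeal A := by
      have : (Q.comap (Ideal.Quotient.mk I)).IsPrime := Ideal.comap_isPrime _ _
      refine maximalIdeal_of_le Γ hΓ _ ?_
      intro a ha
      rw [Ideal.mem_comap, Ideal.Quotient.eq_zero_iff_mem.2 ha]
      exact Q.zero_mem
    have h2 : (Q.comap (Ideal.Quotient.mk I)).IsMaximal := by
      rw [h1]; exact IsLocalRing.maximalIdeal.isMaximal A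
    rw [← Ideal.map_comap_of_surjective (Ideal.Quotient.mk I) Ideal.Quotient.mk_surjective Q]
    refine (Ideal.map_eq_top_or_isMaximal_of_surjective _ Ideal.Quotient.mk_surjective h2).resolve_left ?_
    rw [Ideal.map_comap_of_surjective (Ideal.Quotient.mk I) Ideal.Quotient.mk_surjective Q]
    exact hQ.ne_top
  have hart : IsArtinianRing (A ⧸ I) := IsNoetherianRing.isArtinianRing_of_krullDimLE_zero
  rw [isFiniteLength_iff_isNoetherian_isArtinian]
  refine ⟨inferInstance, ?_⟩
  exact isArtinian_of_surjective_algebraMap (R := A ⧸ I) (M := A ⧸ I) (S := A) Ideal.Quotient.mk_surjective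

/-- The multiplicity, as an extended natural number, is the length. -/
theorem coe_mult [LocallyOfFiniteType X.hom] (Γ : ArSurf.VertComp R X)
    (hΓ : Set.range (Γ.ι.base : Γ.curve.left → X.left) ∈ Models.fibreComponents R X) :
    (Models.mult R X Γ : ℕ∞) = Module.length (X.left.presheaf.stalk (Models.genPtOf R X Γ))
      (X.left.presheaf.stalk (Models.genPtOf R X Γ) ⧸
        Ideal.map (Models.stalkHom R X (Models.genPtOf R X Γ)) (IsLocalRing.maximalIdeal R)) :=
  ENat.natCast_toNat (Module.length_ne_top_iff.2 (isFiniteLength Γ hΓ))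

/-- The multiplicity of a component of the closed fibre is positive. -/
theorem mult_pos [LocallyOfFiniteType X.hom] (Γ : ArSurf.VertComp R X)
    (hΓ : Set.range (Γ.ι.base : Γ.curve.left → X.left) ∈ Models.fibreComponents R X) :
    0 < Models.mult R X Γ := by
  rw [Nat.pos_iff_ne_zero]
  intro h0
  have h1 := coe_mult Γ hΓ
  rw [h0] at h1
  exact length_ne_zero Γ hΓ h1.symm

/-- The same for a member of a component list. -/
theorem mult_pos_of_isComponentList [LocallyOfFiniteType X.hom] {n : ℕ} (Γ : Fin n → ArSurf.VertComp R X)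
    (hΓ : Models.IsComponentList R X Γ) (i : Fin n) : 0 < Models.mult R X (Γ i) :=
  mult_pos (Γ i) (hΓ.2 ▸ ⟨i, rfl⟩)

end Groth.Agent.Models.H43.MultPos
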