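import Groth.Agent.Models.H43.FormGlue
import Groth.Agent.Models.H43.MultPos

/-!
# S3320 from the four basic properties of the intersection numbers (S3316–S3319)
-/

set_option autoImplicit false
universe u

open CategoryTheory CategoryTheory.Limits AlgebraicGeometry

namespace Groth.Agent.Models.H43.S3320Cond

theorem cond (R : Type u) [CommRing R] [IsDomain R] [IsDiscreteValuationRing R]
    (C X : Scheme.{u}) (f : C ⟶ Spec (CommRingCat.of (FractionRing R))) (p : X ⟶ Spec (CommRingCat.of R))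
    (hX : Models.IsRegularProperModel R X p C f)
    {n : ℕ} (Γ : Fin n → ArSurf.VertComp R (Over.mk p)) (hΓ : Models.IsComponentList R (Over.mk p) Γ)
    (L : Fin n → X.Modules)
    (hsymm : ∀ i j, ArSurf.inter R (Over.mk p) (L j) (Γ i) = ArSurf.inter R (Over.mk p) (L i) (Γ j))
    (hnonneg : ∀ i j, i ≠ j → 0 ≤ ArSurf.inter R (Over.mk p) (L j) (Γ i))
    (hsum : ∀ j, ∑ i, (Models.mult R (Over.mk p) (Γ i) : ℤ) * ArSurf.inter R (Over.mk p) (L j) (Γ i) = 0)
    (hconn : ∀ I : Finset (Fin n), I.Nonempty → I ≠ Finset.univ →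
      ∃ i ∈ I, ∃ j ∉ I, ArSurf.inter R (Over.mk p) (L j) (Γ i) ≠ 0)
    (a : Fin n → ℤ) :
    (∑ q : Fin n × Fin n, a q.1 * a q.2 * ArSurf.inter R (Over.mk p) (L q.2) (Γ q.1)) ≤ 0 ∧
      ((∑ q : Fin n × Fin n, a q.1 * a q.2 * ArSurf.inter R (Over.mk p) (L q.2) (Γ q.1)) = 0 ↔
        ∃ c : ℚ, ∀ i, (a i : ℚ) = c * (Models.mult R (Over.mk p) (Γ i) : ℚ)) := by
  have hft : LocallyOfFiniteType (Over.mk p : Over (Spec (CommRingCat.of R))).hom := hX.1.2.1
  exact FormGlue.form_nonpos_and_eq_zero_iff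
    (fun i j => ArSurf.inter R (Over.mk p) (L j) (Γ i)) (fun i => Models.mult R (Over.mk p) (Γ i))
    hsymm hnonneg (fun i => MultPos.mult_pos_of_isComponentList Γ hΓ i) hsum hconn a

end Groth.Agent.Models.H43.S3320Cond
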